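import Cfsg.Agent.H335.TC6.CertA
import Cfsg.Agent.H335.TC6.CertB
import Cfsg.Agent.H335.TC6.CertC
import Cfsg.Agent.H335.TC6.CertD
import Cfsg.Agent.H335.TC6.Pts
import Cfsg.Agent.H335.FT.PsRow
import Cfsg.Agent.H374.QS.FF.Row

/-!
# S2464, `F₄(2)`: every nontrivial element is a product of two elements of one class of order 7 (helper335)

* `ps7` : the elements of `Ps ∖ Q_s`; `HFix`, `HCov` : the two facts on the words with / without fixed vector;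
* `odd7` : the elements of odd order; `all7` : all elements.
-/

set_option autoImplicit false

namespace Cfsg.Agent.H335.TC6

open Cfsg.Agent.FourTwo.Cent Cfsg.Agent.FourTwo.Par
open Cfsg.Agent.FourTwo.Base (LL x bar exists_graph)

/-- every `w q` over a word with a fixed vector is conjugate into `Pl ∖ Q_l` -/
def HFix : Prop := ∀ w ∈ Cfsg.Agent.H612.Ore.rws, w ≠ [] → w ∉ NF → ∀ q ∈ RG Cfsg.Agent.FourTwo.Facts2.qsP,
  ∃ y : LL, y * (Cfsg.Agent.FourTwo.Base.wd (w.flatMap Cfsg.Agent.H335.FT.tw) * q) * y⁻¹ ∈ Pl ∧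
    y * (Cfsg.Agent.FourTwo.Base.wd (w.flatMap Cfsg.Agent.H335.FT.tw) * q) * y⁻¹ ∉ RG Cfsg.Agent.H434.FF.ql

/-- every `w q` over a word without fixed vector is conjugate to a point -/
def HCov : Prop := ∀ w ∈ NF, ∀ q ∈ RG Cfsg.Agent.FourTwo.Facts2.qsP, ∃ y : LL, ∃ c ∈ comps w,
  y * (Cfsg.Agent.FourTwo.Base.wd (w.flatMap Cfsg.Agent.H335.FT.tw) * q) * y⁻¹ =
    Cfsg.Agent.FourTwo.Base.wd (w.flatMap Cfsg.Agent.H335.FT.tw ++ c)

/-! ### the elements of `Ps ∖ Q_s` -/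

theorem rws_all7 : (Cfsg.Agent.H612.Ore.rws.all fun w => w.isEmpty ||
    (CertA.ws.contains w || (CertB.ws.contains w || (CertC.ws.contains w || CertD.ws.contains w)))) = true := by
  decide +kernel

theorem good7_word {w : List ℕ} (hw : w ∈ Cfsg.Agent.H612.Ore.rws) (h0 : w ≠ []) {q : LL}
    (hq : q ∈ RG Cfsg.Agent.FourTwo.Facts2.qsP) :
    P7 X0 (Cfsg.Agent.FourTwo.Base.wd (w.flatMap Cfsg.Agent.H335.FT.tw) * q) := by
  have h1 := (List.all_eq_true.1 rws_all7) w hw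
  rw [Cfsg.Agent.H335.FT.flat_eq]
  have hq' := Cfsg.Agent.H335.FT.RG_le_Cl hq
  simp only [Bool.or_eq_true, List.isEmpty_iff, List.contains_iff_mem] at h1
  rcases h1 with h1 | h1 | h1 | h1 | h1
  · exact absurd h1 h0
  · exact CertA.good h1 q hq'
  · exact CertB.good h1 q hq'
  · exact CertC.good h1 q hq'
  · exact CertD.good h1 q hq'

theorem normQs : normB psP Cfsg.Agent.FourTwo.Facts2.qsP = true := by decide +kernel

/-- the words of the elements of `Ps ∖ Q_s` -/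
theorem word_of {g : LL} (hg : g ∈ Ps) (hn : g ∉ RG Cfsg.Agent.FourTwo.Facts2.qsP) :
    ∃ w ∈ Cfsg.Agent.H612.Ore.rws, w ≠ [] ∧ ∃ y : LL, ∃ q ∈ RG Cfsg.Agent.FourTwo.Facts2.qsP,
      y * g * y⁻¹ = Cfsg.Agent.FourTwo.Base.wd (w.flatMap Cfsg.Agent.H335.FT.tw) * q := by
  obtain ⟨w, hw, y, hy, q, hq, e⟩ := Cfsg.Agent.H903.Pw.Rho.exists_word' hg
  refine ⟨w, hw, ?_, y, q, hq, e⟩
  rintro rfl
  apply hn
  have e1 : y * g * y⁻¹ = q := by rw [e]; exact one_mul q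
  have e2 : g = y⁻¹ * q * y⁻¹⁻¹ := by rw [← e1]; group
  rw [e2]
  exact conj_mem normQs (inv_mem hy) hq

/-- **The elements of `Ps ∖ Q_s`.** -/
theorem ps7 {g : LL} (hg : g ∈ Ps) (hn : g ∉ RG Cfsg.Agent.FourTwo.Facts2.qsP) : P7 X0 g := by
  obtain ⟨w, hw, h0, y, q, hq, e⟩ := word_of hg hn
  refine P7.of_conj y ?_
  rw [e]
  exact good7_word hw h0 hq

/-! ### the graph automorphism -/

section

variable {α : LL ≃* LL} (hα : ∀ r < 48, α (x r) = x (bar r))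

include hα

theorem alpha_X0 : α X0 = Cfsg.Agent.H335.FT.wd Pts.x1 := by
  have h1 : X0 = Cfsg.Agent.FourTwo.Base.wd x0 := Cfsg.Agent.H335.FT.wd_eq_base (by decide)
  have h2 : Cfsg.Agent.H335.FT.wd Pts.x1 = Cfsg.Agent.FourTwo.Base.wd Pts.x1 :=
    Cfsg.Agent.H335.FT.wd_eq_base (by decide)
  rw [h1, h2, Cfsg.Agent.H326.F4C.map_wd hα (by decide)]
  rfl

/-- the other class -/
theorem P7.alpha {g : LL} (h : P7 (Cfsg.Agent.H335.FT.wd Pts.x1) (α g)) : P7 X0 g := by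
  have h1 := h.map α.symm.toMonoidHom
  have e1 : α.symm.toMonoidHom (Cfsg.Agent.H335.FT.wd Pts.x1) = X0 := by
    rw [← alpha_X0 hα]
    exact α.symm_apply_apply X0
  have e2 : α.symm.toMonoidHom (α g) = g := α.symm_apply_apply g
  rwa [e1, e2] at h1

/-- **The elements of `Pl ∖ Q_l`.** -/
theorem pl7 (hF : HFix) (hC : HCov) {g : LL} (hg : g ∈ Pl) (hn : g ∉ RG Cfsg.Agent.H434.FF.ql) : P7 X0 g := by
  have h1 := Cfsg.Agent.H374.QS.FF.map_Pl hα hg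
  have h2 : α g ∉ RG Cfsg.Agent.FourTwo.Facts2.qsP := fun h => hn (Cfsg.Agent.H374.QS.FF.map_ql hα h)
  obtain ⟨w, hw, h0, y, q, hq, e⟩ := word_of h1 h2
  by_cases hNF : w ∈ NF
  · refine P7.alpha hα (P7.of_conj y ?_)
    rw [e]
    obtain ⟨z, c, hc, e2⟩ := hC w hNF q hq
    refine P7.of_conj z ?_
    rw [e2]
    have h3 := Pts.point hNF hc
    rw [Cfsg.Agent.H335.FT.wd_append, ← Cfsg.Agent.H335.FT.flat_eq] at h3
    rw [Cfsg.Agent.FourTwo.Base.wd_append]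
    have h4 : Cfsg.Agent.H335.FT.wd c = Cfsg.Agent.FourTwo.Base.wd c := by
      refine Cfsg.Agent.H335.FT.wd_eq_base ?_
      have key : (NF.all fun w => (comps w).all fun c => Cfsg.Agent.H335.FT.su c Cfsg.Agent.H335.FT.used) = true := by
        decide +kernel
      exact Cfsg.Agent.H335.FT.sub_of_su ((List.all_eq_true.1 ((List.all_eq_true.1 key) w hNF)) c hc)
    rwa [h4] at h3
  · obtain ⟨z, h3, h4⟩ := hF w hw h0 hNF q hq
    rw [← e] at h3 h4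
    have e5 : z * (y * α g * y⁻¹) * z⁻¹ = (z * y) * α g * (z * y)⁻¹ := by group
    rw [e5] at h3 h4
    have h6 := Cfsg.Agent.H374.QS.FF.map_Pl hα h3
    have h7 : α ((z * y) * α g * (z * y)⁻¹) ∉ RG Cfsg.Agent.FourTwo.Facts2.qsP :=
      fun h => h4 (Cfsg.Agent.H374.QS.FF.map_ql hα h)
    have h8 := ps7 h6 h7
    rw [map_mul, map_mul, map_inv, Cfsg.Agent.H326.F4C.gamma_sq hα] at h8
    exact P7.of_conj _ h8

end

/-- the elements which are conjugate into `Ps` or `Pl` -/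
theorem par7 (hF : HFix) (hC : HCov) {g : LL} (h1 : g ≠ 1) (h : ∃ y, y * g * y⁻¹ ∈ Ps ∨ y * g * y⁻¹ ∈ Pl) :
    P7 X0 g := by
  obtain ⟨α, hα⟩ := exists_graph
  rcases Cfsg.Agent.H434.FF.not_rad h1 h with ⟨y, h3, h4⟩ | ⟨y, h3, h4⟩
  · exact P7.of_conj y (ps7 h3 h4)
  · exact P7.of_conj y (pl7 hα hF hC h3 h4)

/-- **Every nontrivial element.** -/
theorem all7 (hF : HFix) (hC : HCov) {g : LL} (h1 : g ≠ 1) : P7 X0 g := by
  rcases Nat.even_or_odd (orderOf g) with he | ho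
  · exact par7 hF hC h1 (Cfsg.Agent.H824.Fs.exists_conj_par _ he)
  · obtain ⟨p, hp, h⟩ := Cfsg.Agent.H326.F4C.exists_mem Cfsg.Agent.H374.QS.FF.h16 ho
    have hc : ∀ s : List ℕ, Cfsg.Agent.FourTwo.Base.wd p.2 ∈ Cfsg.Agent.H326.F4C.lev s →
        ∃ y : LL, y * g * y⁻¹ ∈ Cfsg.Agent.H326.F4C.lev s := by
      intro s hs
      obtain ⟨c, hc⟩ := isConj_iff.1 h.symm
      exact ⟨c, by rw [hc]; exact hs⟩
    have hp' := hp
    unfold Cfsg.Agent.H326.F4C.W16 at hp'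
    rw [List.mem_append, List.mem_append] at hp'
    rcases hp' with h2 | h2 | h2
    · obtain ⟨y, hy⟩ := hc _ (Cfsg.Agent.H326.F4C.mem_of_chk Cfsg.Agent.H326.F4C.WL_chk h2)
      exact par7 hF hC h1 ⟨y, Or.inl (Cfsg.Agent.H374.QS.FF.lev1 hy)⟩
    · obtain ⟨y, hy⟩ := hc _ (Cfsg.Agent.H326.F4C.mem_of_chk Cfsg.Agent.H326.F4C.WM_chk h2)
      exact par7 hF hC h1 ⟨y, Or.inr (Cfsg.Agent.H374.QS.FF.lev2 hy)⟩
    · have key : (Cfsg.Agent.H326.F4C.WN.all fun p =>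
          (Pts.TO.map Prod.fst).contains p.2 && Cfsg.Agent.H335.FT.su p.2 Cfsg.Agent.H335.FT.used) = true := by
        decide +kernel
      have h3 := (List.all_eq_true.1 key) p h2
      rw [Bool.and_eq_true, List.contains_iff_mem] at h3
      have h4 := Pts.pointO h3.1
      rw [Cfsg.Agent.H335.FT.wd_eq_base (Cfsg.Agent.H335.FT.sub_of_su h3.2)] at h4
      exact P7.of_isConj h4 h

end Cfsg.Agent.H335.TC6
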