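import Cfsg.Agent.H335.TC6.Core
import Cfsg.Agent.H824.TC6.Fix23
import Cfsg.Agent.H555.TC6.Cov6
import Cfsg.Agent.H777.T6.Defs

/-!
# S2464: the row `F₄(2)` (helper335)

* `tc_LL` : every nontrivial element of `F₄(2)` is a product of two conjugates of one element of order 7;
* `t6_F4_two` : the row, over any field with two elements.
-/

set_option autoImplicit false

namespace Cfsg.Agent.H335.TC6

open Cfsg.Agent.FourTwo.Base (LL)
open Cfsg.Lie

universe u

theorem hfix : HFix := fun _ hw h0 hn _ hq => Cfsg.Agent.H824.TC6.fix23 hw h0 hn hq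

theorem hcov : HCov := fun _ hw _ hq => Cfsg.Agent.H555.TC6.cov6 hw hq

theorem orderOf_X0 : orderOf X0 = 7 := by
  have h1 : X0 = Cfsg.Agent.FourTwo.Base.wd x0 := Cfsg.Agent.H335.FT.wd_eq_base (by decide)
  rw [h1]
  exact Cfsg.Agent.H326.F4C.order_prime (by norm_num) (by decide +kernel) (by decide +kernel)

/-- **every nontrivial element of `F₄(2)` is a product of two conjugates of `X0`** -/
theorem tc_LL (g : LL) (hg : g ≠ 1) : ∃ u v : LL, g = (u * X0 * u⁻¹) * (v * X0 * v⁻¹) := (all7 hfix hcov hg).six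

theorem row3_LL : Cfsg.Agent.H210.TC.Row3 LL :=
  Cfsg.Agent.H210.TC.Row3.of_sq (x := X0) (by rw [orderOf_X0]; norm_num) (by rw [orderOf_X0]; norm_num) tc_LL

/-- **The row `F₄(2)`** of S2464 and S2452. -/
theorem row3_F4_two {K : Type u} [Field K] (hK : Nat.card K = 2) : Cfsg.Agent.H210.TC.Row3 ↥(chevF4.group K) := by
  have : Finite K := Nat.finite_of_card_ne_zero (by rw [hK]; norm_num)
  let _ : Fintype K := Fintype.ofFinite K
  have hc : Fintype.card K = 2 := by rw [← Nat.card_eq_fintype_card, hK]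
  obtain ⟨e⟩ := Cfsg.Agent.FourTwo.Mult.exists_equiv K hc
  exact Cfsg.Agent.H210.TC.Row3.of_equiv (G := ↥(chevF4.group K)) (H := LL) e row3_LL

/-- **The row `F₄(2)`** of S2464. -/
theorem t6_F4_two {K : Type u} [Field K] (hK : Nat.card K = 2) : Cfsg.Agent.H777.T6.T6 ↥(chevF4.group K) :=
  Cfsg.Agent.H777.T6.T6.of_row3 (row3_F4_two hK)

end Cfsg.Agent.H335.TC6
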